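import Cfsg.Agent.E7P.En2.Tab

/-!
# S5932, END2: the finite checks (helper61)

* `zf` : an isolated weight; `rk` : a cocharacter which kills the supports; `leaf` : the test for a pair;
* `srch` : the search for the second cocharacter, `srch_spec`; `chk_all`, `chk_three`, `chk_four` : the results.
-/

set_option autoImplicit false
set_option maxRecDepth 100000
set_option maxHeartbeats 400000

namespace Cfsg.Agent.E7P.En2

open Cfsg.Agent.E7P.Kf Cfsg.Agent.E7P.Rsl

/-- the scalar product -/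
noncomputable def dot (a : List ℤ) : List ℤ → ℤ :=
  List.rec (fun _ => Int.ofNat 0) (fun x _ ih b => List.rec (Int.ofNat 0) (fun y b _ => Int.add (Int.mul x y) (ih b)) b) a

/-- small powers of two -/
def pw (x : ℤ) : Bool := Nat.testBit 65814 x.natAbs

/-- the code of a pair -/
def cd (x y : ℤ) : ℕ := (Int.add (Int.add x (Int.mul (Int.ofNat 64) y)) (Int.ofNat 8192)).toNat

/-- the set of the codes -/
noncomputable def bits (P : List (ℤ × ℤ)) : ℕ := List.rec 0 (fun x _ B => Nat.lor (Nat.shiftLeft 1 (cd x.1 x.2)) B) P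

/-- an isolated pair -/
noncomputable def zp (P : List (ℤ × ℤ)) : Bool :=
  P.any fun x => pw x.1 && (!(bits P).testBit (cd (x.1 + 2) x.2) && !(bits P).testBit (cd (x.1 - 2) x.2))

/-- an isolated weight -/
noncomputable def zf (T : List (List ℤ)) (b c : List ℤ) : Bool := zp (T.map fun w => (dot w b, dot w c))

/-- some cocharacters -/
def NU : List (List ℤ) := [[8, 12, 16, 24, 18, 12, 6], [2, 2, 3, 4, 3, 2, 1], [2, 3, 4, 6, 5, 4, 3], [2, 3, 4, 6, 3, 2, 1],
  [1, 1, 2, 3, 3, 2, 1], [4, 7, 10, 14, 11, 8, 4], [2, 3, 2, 4, 3, 2, 1], [2, 1, 4, 4, 3, 2, 1], [0, 1, 0, 1, 1, 0, 0],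
  [0, 1, 0, 2, 3, 2, 1]]

/-- a cocharacter which kills the supports -/
noncomputable def rk (b c : List ℤ) : Bool := NU.any fun ν => CT.all fun w =>
  dot w ν == 0 || !((dot w b == 2 && dot w c == 0) || (dot w b == 0 && (dot w c == 2 || dot w c == 0)))

/-- twice the highest coroot -/
def t1 : List ℤ := [4, 4, 6, 8, 6, 4, 2]

/-- twice the highest coroot of `D₆` -/
def t2 : List ℤ := [0, 2, 2, 4, 4, 4, 2]

/-- the test for a pair -/
noncomputable def leaf (b c : List ℤ) : Bool := zf WT c b || (zf WT b c || (rk b c || (zf GT b c || (b == t1 && c == t2))))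

/-- the loop over `c ± u, c ± (u + 2), ...` -/
noncomputable def two (f : ℕ → ℕ → Bool) (c rem n : ℕ) : ℕ → Bool :=
  Nat.rec (fun _ => false) (fun _ ih u => cond (Nat.ble (Nat.mul u u) rem)
    (f (Nat.add c u) (Nat.sub rem (Nat.mul u u)) &&
      (cond (Nat.ble u c) (Nat.beq u 0 || f (Nat.sub c u) (Nat.sub rem (Nat.mul u u))) true && ih (Nat.add u 2))) true) n

/-- a loop, or a single value -/
noncomputable def lp (z : Bool) (c rem par : ℕ) (f : ℕ → ℕ → Bool) : Bool :=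
  cond z (cond (Nat.ble (Nat.mul c c) rem) (Nat.beq (Nat.mod (Nat.add c par) 2) 1 || f 0 (Nat.sub rem (Nat.mul c c))) true)
    (two f c rem 40 par)

/-- the loop over `c + u, c + (u + 1), ...` -/
noncomputable def one (f : ℕ → ℕ → Bool) (c rem n : ℕ) : ℕ → Bool :=
  Nat.rec (fun _ => false) (fun _ ih u => cond (Nat.ble (Nat.mul 2 (Nat.mul u u)) rem)
    (f (Nat.add c u) (Nat.sub rem (Nat.mul 2 (Nat.mul u u))) && ih (Nat.add u 1)) true) n

/-- a loop, or a single value -/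
noncomputable def lq (z : Bool) (c rem : ℕ) (f : ℕ → ℕ → Bool) : Bool :=
  cond z (cond (Nat.ble (Nat.mul 2 (Nat.mul c c)) rem) (f 0 (Nat.sub rem (Nat.mul 2 (Nat.mul c c)))) true)
    (one f c rem 40 0)

/-- dominance -/
def dm (z : Bool) (x y : ℕ) (b : Bool) : Bool := cond z b (cond (Nat.ble x y) b true)

/-- the search -/
noncomputable def srch (a0 a1 a2 a3 a4 a5 a6 : Bool) (Q : ℕ) (lf : ℕ → ℕ → ℕ → ℕ → ℕ → ℕ → ℕ → Bool) : Bool :=
  lq a0 0 Q fun t r0 => [0, 1].all fun par =>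
  lp a6 t r0 par fun l6 r1 =>
  lp a5 (Nat.add l6 t) r1 par fun l5 r2 => dm a6 l5 (Nat.mul 2 l6) <|
  lp a4 (Nat.add l5 t) r2 par fun l4 r3 => dm a5 (Nat.add l4 l6) (Nat.mul 2 l5) <|
  lp a3 (Nat.add l4 t) r3 par fun l3 r4 => dm a4 (Nat.add l3 l5) (Nat.mul 2 l4) <|
  lq a1 (Nat.div l3 2) r4 fun l1 r5 => Nat.beq (Nat.mod (Nat.add l1 l6) 2) 1 ||
  lq a2 (Nat.add (Nat.div l3 2) t) r5 fun l2 r6 => cond (Nat.beq r6 0) (Nat.beq (Nat.mod l2 2) 1 ||
    (dm a3 (Nat.add l1 (Nat.add l2 l4)) (Nat.mul 2 l3) <| dm a0 l2 (Nat.mul 4 t) <| lf (Nat.mul 2 t) l1 l2 l3 l4 l5 l6)) true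

/-- twice the inverse Cartan matrix -/
def IC : List (List ℤ) := [[4, 4, 6, 8, 6, 4, 2], [4, 7, 8, 12, 9, 6, 3], [6, 8, 12, 16, 12, 8, 4], [8, 12, 16, 24, 18, 12, 6],
  [6, 9, 12, 18, 15, 10, 5], [4, 6, 8, 12, 10, 8, 4], [2, 3, 4, 6, 5, 4, 3]]

/-- the cocharacter with given labels -/
noncomputable def cwl (a : List ℤ) : List ℤ := IC.map fun r => dot r a

/-- the check for given labels -/
noncomputable def chk (a0 a1 a2 a3 a4 a5 a6 : Bool) : Bool :=
  !(a0 || a1 || a2 || a3 || a4 || a5 || a6) ||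
  srch a0 a1 a2 a3 a4 a5 a6
    (2 * dot (cwl [a0.toInt, a1.toInt, a2.toInt, a3.toInt, a4.toInt, a5.toInt, a6.toInt])
      [a0.toInt, a1.toInt, a2.toInt, a3.toInt, a4.toInt, a5.toInt, a6.toInt]).toNat
    fun l0 l1 l2 l3 l4 l5 l6 => leaf (cwl [a0.toInt, a1.toInt, a2.toInt, a3.toInt, a4.toInt, a5.toInt, a6.toInt])
      [Int.ofNat l0, Int.ofNat l1, Int.ofNat l2, Int.ofNat l3, Int.ofNat l4, Int.ofNat l5, Int.ofNat l6]

theorem chk_1 : ∀ a1 a2 a3 a4 a5 a6, chk true a1 a2 a3 a4 a5 a6 = true := by decide +kernel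

theorem chk_01 : ∀ a2 a3 a4 a5 a6, chk false true a2 a3 a4 a5 a6 = true := by decide +kernel

theorem chk_001 : ∀ a3 a4 a5 a6, chk false false true a3 a4 a5 a6 = true := by decide +kernel

theorem chk_000 : ∀ a3 a4 a5 a6, chk false false false a3 a4 a5 a6 = true := by decide +kernel

/-- the function `χ` -/
def chi (x : ℤ) : ℤ := if x = 0 then 1 else if x = 2 then -1 else 0

theorem chk_two : (WT.map fun w => chi (dot w t1) * chi (dot w t2)).sum = 2 := by decide +kernel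

theorem chk_three : (CT.all fun x => !(dot x t1 == 0 && dot x t2 == 0) ||
    ((WT.map fun w => chi (dot w t1) * (chi (dot w t2) * chi (dot w (cwl x)))).sum == 2 ||
      zp (WT.map fun w => (dot w t1, dot w t2 + 5 * dot w (cwl x))))) = true := by decide +kernel

theorem chk_four : (CT.all fun x => !(dot x t1 == 0 && dot x t2 == 0) || CT.all fun y =>
    !(dot y t1 == 0 && dot y t2 == 0 && dot y (cwl x) == 0) ||
    (zp (WT.map fun w => (dot w t1, dot w t2 + 5 * dot w (cwl x) + 25 * dot w (cwl y))) ||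
      zp (WT.map fun w => (dot w t2, dot w t1 + 5 * dot w (cwl x) + 25 * dot w (cwl y))))) = true := by decide +kernel

theorem chk_all (a0 a1 a2 a3 a4 a5 a6 : Bool) : chk a0 a1 a2 a3 a4 a5 a6 = true := by
  cases a0
  · cases a1
    · cases a2
      · exact chk_000 _ _ _ _
      · exact chk_001 _ _ _ _
    · exact chk_01 _ _ _ _ _
  · exact chk_1 _ _ _ _ _ _

theorem dot_lst (c l : Fin 7 → ℤ) : dot (lst c) (lst l) = lev l c := by
  show c 0 * l 0 + (c 1 * l 1 + (c 2 * l 2 + (c 3 * l 3 + (c 4 * l 4 + (c 5 * l 5 + (c 6 * l 6 + 0)))))) = _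
  rw [lev, Fin.sum_univ_seven]
  ring

theorem cwl_lst (c : Fin 7 → ℤ) : cwl (lst c) = lst (nt_cw c) := by
  show [dot (lst ![4, 4, 6, 8, 6, 4, 2]) _, dot (lst ![4, 7, 8, 12, 9, 6, 3]) _, dot (lst ![6, 8, 12, 16, 12, 8, 4]) _,
    dot (lst ![8, 12, 16, 24, 18, 12, 6]) _, dot (lst ![6, 9, 12, 18, 15, 10, 5]) _, dot (lst ![4, 6, 8, 12, 10, 8, 4]) _,
    dot (lst ![2, 3, 4, 6, 5, 4, 3]) _] = _
  simp only [dot_lst]
  simp [lst, lev, nt_cw, iC, Fin.sum_univ_seven, mul_comm]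

theorem pw_ne {k : Type*} [Field k] (h2 : (2 : k) ≠ 0) {x : ℤ} (hx : pw x = true) : (x : k) ≠ 0 := by
  have h1 : x.natAbs < 17 := (Nat.pow_lt_pow_iff_right one_lt_two).1 ((Nat.ge_two_pow_of_testBit hx).trans_lt (by norm_num))
  have h3 : ∀ n < 17, Nat.testBit 65814 n = true → ∃ e < 5, n = 2 ^ e := by decide
  obtain ⟨e, -, he⟩ := h3 _ h1 hx
  rcases Int.natAbs_eq x with h4 | h4 <;> rw [h4, he] <;> simp [h2]

theorem bits_spec {P : List (ℤ × ℤ)} {x y : ℤ} (hx : (x, y) ∈ P) : (bits P).testBit (cd x y) = true := by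
  induction P with
  | nil => exact absurd hx List.not_mem_nil
  | cons z P ih =>
    show Nat.testBit (1 <<< cd z.1 z.2 ||| bits P) _ = true
    rw [Nat.testBit_or, Bool.or_eq_true, Nat.one_shiftLeft]
    rcases List.mem_cons.1 hx with rfl | hx
    · exact Or.inl Nat.testBit_two_pow_self
    · exact Or.inr (ih hx)

theorem zp_false {P : List (ℤ × ℤ)} (hP : ∀ x ∈ P, pw x.1 = true → (x.1 + 2, x.2) ∈ P ∨ (x.1 - 2, x.2) ∈ P) :
    zp P = false := by
  rw [zp, List.any_eq_false]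
  intro x hx e
  simp only [Bool.and_eq_true, Bool.not_eq_true'] at e
  rcases hP x hx e.1 with h1 | h1
  · exact Bool.false_ne_true (e.2.1.symm.trans (bits_spec h1))
  · exact Bool.false_ne_true (e.2.2.symm.trans (bits_spec h1))

theorem two_spec {f : ℕ → ℕ → Bool} {c rem x d r : ℕ} (hx : x = c + d ∨ x + d = c) (hr : d * d + r = rem) :
    ∀ n u, two f c rem n u = true → u ≤ d → (d + u) % 2 = 0 → f x r = true := by
  intro n
  induction n with
  | zero => exact fun u e => absurd e Bool.false_ne_true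
  | succ n ih =>
    intro u e h1 h2
    have h3 : Nat.ble (u * u) rem = true := Nat.ble_eq_true_of_le ((Nat.mul_self_le_mul_self h1).trans (by omega))
    have h4 : cond (Nat.ble (u * u) rem) (f (c + u) (rem - u * u) && (cond (Nat.ble u c) (Nat.beq u 0 ||
      f (c - u) (rem - u * u)) true && two f c rem n (u + 2))) true = true := e
    simp only [h3, cond_true, Bool.and_eq_true] at h4
    by_cases h5 : u = d
    · subst h5
      rw [show rem - u * u = r by omega] at h4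
      rcases hx with rfl | rfl
      · exact h4.1
      · have h6 := h4.2.1
        rw [Nat.ble_eq_true_of_le (Nat.le_add_left _ _), cond_true, Bool.or_eq_true, Nat.beq_eq, Nat.add_sub_cancel] at h6
        rcases h6 with rfl | h6
        · exact h4.1
        · exact h6
    · exact ih _ h4.2.2 (by omega) (by omega)

theorem lp_spec {z : Bool} {f : ℕ → ℕ → Bool} {c rem par x d r : ℕ} (e : lp z c rem par f = true) (hz : z = true → x = 0)
    (hx : x = c + d ∨ x + d = c) (hr : d * d + r = rem) (h1 : par < 2) (h2 : (d + par) % 2 = 0) : f x r = true := by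
  cases z
  · exact two_spec hx hr 40 par e (by omega) h2
  · obtain rfl := hz rfl
    obtain rfl : c = d := by omega
    have h3 : cond (Nat.ble (c * c) rem) (Nat.beq ((c + par) % 2) 1 || f 0 (rem - c * c)) true = true := e
    rwa [Nat.ble_eq_true_of_le (show c * c ≤ rem by omega), h2, show rem - c * c = r by omega] at h3

theorem one_spec {f : ℕ → ℕ → Bool} {c rem d r : ℕ} (hr : 2 * (d * d) + r = rem) :
    ∀ n u, one f c rem n u = true → u ≤ d → f (c + d) r = true := by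
  intro n
  induction n with
  | zero => exact fun u e => absurd e Bool.false_ne_true
  | succ n ih =>
    intro u e h1
    have h2 := Nat.mul_self_le_mul_self h1
    have h3 : Nat.ble (2 * (u * u)) rem = true := Nat.ble_eq_true_of_le (by omega)
    have h4 : cond (Nat.ble (2 * (u * u)) rem) (f (c + u) (rem - 2 * (u * u)) && one f c rem n (u + 1)) true = true := e
    simp only [h3, cond_true, Bool.and_eq_true] at h4
    by_cases h5 : u = d
    · subst h5
      rw [show rem - 2 * (u * u) = r by omega] at h4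
      exact h4.1
    · exact ih _ h4.2 (by omega)

theorem lq_spec {z : Bool} {f : ℕ → ℕ → Bool} {c rem x d r : ℕ} (e : lq z c rem f = true) (hz : z = true → x = 0)
    (hz' : z = false → c ≤ x) (hx : x = c + d ∨ x + d = c) (hr : 2 * (d * d) + r = rem) : f x r = true := by
  cases z
  · have h1 := hz' rfl
    rw [show x = c + d by omega]
    exact one_spec hr 40 0 e (Nat.zero_le _)
  · obtain rfl := hz rfl
    obtain rfl : c = d := by omega
    have h3 : cond (Nat.ble (2 * (c * c)) rem) (f 0 (rem - 2 * (c * c))) true = true := e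
    rwa [Nat.ble_eq_true_of_le (show 2 * (c * c) ≤ rem by omega), show rem - 2 * (c * c) = r by omega] at h3

theorem dm_spec {z b : Bool} {x y : ℕ} (e : dm z x y b = true) (hz : z = false → x ≤ y) : b = true := by
  cases z
  · rwa [dm, cond_false, Nat.ble_eq_true_of_le (hz rfl)] at e
  · exact e

theorem exists_dist (x c : ℕ) : ∃ d : ℕ, (x = c + d ∨ x + d = c) ∧ (d : ℤ) * d = ((x : ℤ) - c) ^ 2 := by
  rcases le_total c x with e | e <;> obtain ⟨d, rfl⟩ := Nat.exists_eq_add_of_le e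
  · exact ⟨d, Or.inl rfl, by push_cast; ring⟩
  · exact ⟨d, Or.inr rfl, by push_cast; ring⟩

theorem srch_spec {a0 a1 a2 a3 a4 a5 a6 : Bool} {Q : ℕ} {lf : ℕ → ℕ → ℕ → ℕ → ℕ → ℕ → ℕ → Bool}
    (e : srch a0 a1 a2 a3 a4 a5 a6 Q lf = true) {t l1 l2 x l4 l5 l6 : ℕ} (z0 : a0 = true → t = 0) (z1 : a1 = true → l1 = 0)
    (z2 : a2 = true → l2 = 0) (z3 : a3 = true → 2 * x = 0) (z4 : a4 = true → l4 = 0) (z5 : a5 = true → l5 = 0)
    (z6 : a6 = true → l6 = 0) (d0 : a0 = false → l2 ≤ 4 * t) (d1 : a1 = false → x ≤ l1) (d2 : a2 = false → x + t ≤ l2)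
    (d3 : a3 = false → l1 + (l2 + l4) ≤ 2 * (2 * x)) (d4 : a4 = false → 2 * x + l5 ≤ 2 * l4)
    (d5 : a5 = false → l4 + l6 ≤ 2 * l5) (d6 : a6 = false → l5 ≤ 2 * l6) (p2 : l2 % 2 = 0) (p5 : l5 % 2 = 0)
    (p1 : (l1 + l6) % 2 = 0) (p4 : (l4 + l6) % 2 = 0)
    (hQ : (Q : ℤ) = 8 * t ^ 2 + 2 * l1 ^ 2 + 2 * l2 ^ 2 + 8 * x ^ 2 + 2 * l4 ^ 2 + 2 * l5 ^ 2 + 2 * l6 ^ 2 - 4 * t * l2 -
      4 * l1 * x - 4 * l2 * x - 4 * x * l4 - 2 * l4 * l5 - 2 * l5 * l6) : lf (2 * t) l1 l2 (2 * x) l4 l5 l6 = true := by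
  obtain ⟨y6, e6, q6⟩ := exists_dist l6 t
  obtain ⟨y5, e5, q5⟩ := exists_dist l5 (l6 + t)
  obtain ⟨y4, e4, q4⟩ := exists_dist l4 (l5 + t)
  obtain ⟨y3, e3, q3⟩ := exists_dist (2 * x) (l4 + t)
  obtain ⟨y1, e1, q1⟩ := exists_dist l1 x
  obtain ⟨y2, e2, q2⟩ := exists_dist l2 (x + t)
  have h0 : 2 * (t * t) + (y6 * y6 + (y5 * y5 + (y4 * y4 + (y3 * y3 + (2 * (y1 * y1) + (2 * (y2 * y2) + 0)))))) = Q := by
    zify
    push_cast at q5 q4 q3 q2
    rw [q6, q5, q4, q3, q1, q2, hQ]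
    ring
  have hx : Nat.div (2 * x) 2 = x := Nat.mul_div_cancel_left x two_pos
  have h1 := lq_spec e z0 (fun _ => Nat.zero_le _) (Or.inl (Nat.zero_add t).symm) h0
  have h2 := List.all_eq_true.1 h1 (y6 % 2) (by simp only [List.mem_cons, List.not_mem_nil, or_false]; omega)
  have h3 := lp_spec h2 z6 e6 rfl (by omega) (by omega)
  have h4 := dm_spec (lp_spec h3 z5 e5 rfl (by omega) (by omega)) d6
  have h5 := dm_spec (lp_spec h4 z4 e4 rfl (by omega) (by omega)) d5
  have h6 := dm_spec (lp_spec h5 z3 e3 rfl (by omega) (by omega)) d4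
  rw [hx] at h6
  have h7 := lq_spec h6 z1 d1 e1 rfl
  rw [show Nat.mod (Nat.add l1 l6) 2 = 0 from p1] at h7
  have h8 := lq_spec ((Bool.false_or _).symm.trans h7) z2 d2 e2 rfl
  rw [show Nat.mod l2 2 = 0 from p2] at h8
  exact dm_spec (dm_spec ((Bool.false_or _).symm.trans h8) d3) d0

end Cfsg.Agent.E7P.En2
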