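import Cfsg.Agent.E7P.En2.Chk

/-!
# S5932, END2: two cocharacters (helper61)

* `exists_dom2` : simultaneous dominance; `zp_V`, `zp_L`, `rk_false` : the tests fail;
* `pair` : two cocharacters of a family with even levels are conjugate to twice the highest coroots of `E₇` and `D₆`.
-/

set_option autoImplicit false
set_option maxRecDepth 100000
set_option maxHeartbeats 400000

namespace Cfsg.Agent.E7P.En2

open Cfsg Cfsg.Lie Matrix
open Cfsg.Agent.R2.T1 Cfsg.Agent.E7P.Kf Cfsg.Agent.E7P.Rsl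

universe u

theorem exists_dom2 (x y : Kf.E) : ∃ v, Dom (wL v x) ∧ ∀ a, wL v x a = 0 → 0 ≤ wL v y a := by
  obtain ⟨v1, h1⟩ := exists_dom x
  obtain ⟨_, ⟨v, hv, rfl⟩, h2⟩ := Set.exists_max_image ((fun v => wL v y) '' {v | wL v x = wL v1 x}) (fun z => bf rho1 z)
    ((finite_orbit y).subset (Set.image_subset_range _ _)) ⟨_, v1, rfl, rfl⟩
  refine ⟨v, (show wL v x = wL v1 x from hv) ▸ h1, fun a ha => ?_⟩
  have h3 := h2 _ ⟨a :: v, show wL (a :: v) x = _ by rw [wL_cons, sr_apply, ha, zero_smul, sub_zero]; exact hv, rfl⟩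
  simp only [wL_cons, sr_apply, map_sub, map_smul, bf_rho1_al, smul_eq_mul, mul_one] at h3
  linarith

theorem nonneg7 {l0 l1 l2 l3 l4 l5 l6 : ℤ} (n0 : l0 = 0 ∨ 0 ≤ 2 * l0 - l2) (n1 : l1 = 0 ∨ 0 ≤ 2 * l1 - l3)
    (n2 : l2 = 0 ∨ 0 ≤ 2 * l2 - l0 - l3) (n3 : l3 = 0 ∨ 0 ≤ 2 * l3 - l1 - l2 - l4) (n4 : l4 = 0 ∨ 0 ≤ 2 * l4 - l3 - l5)
    (n5 : l5 = 0 ∨ 0 ≤ 2 * l5 - l4 - l6) (n6 : l6 = 0 ∨ 0 ≤ 2 * l6 - l5) :
    0 ≤ l0 ∧ 0 ≤ l1 ∧ 0 ≤ l2 ∧ 0 ≤ l3 ∧ 0 ≤ l4 ∧ 0 ≤ l5 ∧ 0 ≤ l6 := by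
  have key : ∀ x : ℤ, ∃ m : ℤ, 0 ≤ m ∧ -x ≤ m ∧ (m = 0 ∨ (m = -x ∧ x ≠ 0)) := fun x => ⟨max 0 (-x), by omega⟩
  obtain ⟨m0, a0, b0, c0⟩ := key l0
  obtain ⟨m1, a1, b1, c1⟩ := key l1
  obtain ⟨m2, a2, b2, c2⟩ := key l2
  obtain ⟨m3, a3, b3, c3⟩ := key l3
  obtain ⟨m4, a4, b4, c4⟩ := key l4
  obtain ⟨m5, a5, b5, c5⟩ := key l5
  obtain ⟨m6, a6, b6, c6⟩ := key l6
  have h0 : 2 * m0 ≤ m2 := c0.elim (fun e => by linarith) fun e => by linarith [n0.resolve_left e.2, e.1]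
  have h1 : 2 * m1 ≤ m3 := c1.elim (fun e => by linarith) fun e => by linarith [n1.resolve_left e.2, e.1]
  have h2 : 2 * m2 ≤ m0 + m3 := c2.elim (fun e => by linarith) fun e => by linarith [n2.resolve_left e.2, e.1]
  have h3 : 2 * m3 ≤ m1 + m2 + m4 := c3.elim (fun e => by linarith) fun e => by linarith [n3.resolve_left e.2, e.1]
  have h4 : 2 * m4 ≤ m3 + m5 := c4.elim (fun e => by linarith) fun e => by linarith [n4.resolve_left e.2, e.1]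
  have h5 : 2 * m5 ≤ m4 + m6 := c5.elim (fun e => by linarith) fun e => by linarith [n5.resolve_left e.2, e.1]
  have h6 : 2 * m6 ≤ m5 := c6.elim (fun e => by linarith) fun e => by linarith [n6.resolve_left e.2, e.1]
  exact ⟨by linarith, by linarith, by linarith, by linarith, by linarith, by linarith, by linarith⟩

theorem srch_int {a0 a1 a2 a3 a4 a5 a6 : Bool} {lf : List ℤ → Bool} {l0 l1 l2 l3 l4 l5 l6 : ℤ}
    (e : srch a0 a1 a2 a3 a4 a5 a6 ((2 * l0 - l2) * l0 + (2 * l1 - l3) * l1 + (2 * l2 - l0 - l3) * l2 +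
      (2 * l3 - l1 - l2 - l4) * l3 + (2 * l4 - l3 - l5) * l4 + (2 * l5 - l4 - l6) * l5 + (2 * l6 - l5) * l6).toNat
      (fun l0 l1 l2 l3 l4 l5 l6 => lf [Int.ofNat l0, Int.ofNat l1, Int.ofNat l2, Int.ofNat l3, Int.ofNat l4, Int.ofNat l5,
        Int.ofNat l6]) = true) (z0 : a0 = true → l0 = 0) (z1 : a1 = true → l1 = 0) (z2 : a2 = true → l2 = 0)
    (z3 : a3 = true → l3 = 0) (z4 : a4 = true → l4 = 0) (z5 : a5 = true → l5 = 0) (z6 : a6 = true → l6 = 0)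
    (d0 : a0 = false → 0 ≤ 2 * l0 - l2) (d1 : a1 = false → 0 ≤ 2 * l1 - l3) (d2 : a2 = false → 0 ≤ 2 * l2 - l0 - l3)
    (d3 : a3 = false → 0 ≤ 2 * l3 - l1 - l2 - l4) (d4 : a4 = false → 0 ≤ 2 * l4 - l3 - l5)
    (d5 : a5 = false → 0 ≤ 2 * l5 - l4 - l6) (d6 : a6 = false → 0 ≤ 2 * l6 - l5) (p0 : (2 * l0 - l2) % 2 = 0)
    (p1 : (2 * l1 - l3) % 2 = 0) (p2 : (2 * l2 - l0 - l3) % 2 = 0) (p3 : (2 * l3 - l1 - l2 - l4) % 2 = 0)
    (p5 : (2 * l5 - l4 - l6) % 2 = 0) (p6 : (2 * l6 - l5) % 2 = 0) : lf [l0, l1, l2, l3, l4, l5, l6] = true := by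
  have key : ∀ {a : Bool} {P Q : Prop}, (a = true → P) → (a = false → Q) → P ∨ Q := fun {a} _ _ h1 h2 => by
    cases a
    · exact Or.inr (h2 rfl)
    · exact Or.inl (h1 rfl)
  obtain ⟨n0, n1, n2, n3, n4, n5, n6⟩ := nonneg7 (key z0 d0) (key z1 d1) (key z2 d2) (key z3 d3) (key z4 d4) (key z5 d5)
    (key z6 d6)
  obtain ⟨t, rfl⟩ : ∃ t : ℕ, l0 = (2 * t : ℕ) := ⟨l0.toNat / 2, by omega⟩
  obtain ⟨x, rfl⟩ : ∃ x : ℕ, l3 = (2 * x : ℕ) := ⟨l3.toNat / 2, by omega⟩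
  lift l1 to ℕ using n1
  lift l2 to ℕ using n2
  lift l4 to ℕ using n4
  lift l5 to ℕ using n5
  lift l6 to ℕ using n6
  refine srch_spec e (fun e => by have := z0 e; omega) (fun e => by have := z1 e; omega) (fun e => by have := z2 e; omega)
    (fun e => by have := z3 e; omega) (fun e => by have := z4 e; omega) (fun e => by have := z5 e; omega)
    (fun e => by have := z6 e; omega) (fun e => by have := d0 e; omega) (fun e => by have := d1 e; omega)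
    (fun e => by have := d2 e; omega) (fun e => by have := d3 e; omega) (fun e => by have := d4 e; omega)
    (fun e => by have := d5 e; omega) (fun e => by have := d6 e; omega) (by omega) (by omega) (by omega) (by omega) ?_
  rw [Int.toNat_of_nonneg] <;> push_cast
  · ring
  · nlinarith [sq_nonneg ((l6 : ℤ) - t), sq_nonneg ((l5 : ℤ) - l6 - t), sq_nonneg ((l4 : ℤ) - l5 - t),
      sq_nonneg (2 * (x : ℤ) - l4 - t), sq_nonneg ((l1 : ℤ) - x), sq_nonneg ((l2 : ℤ) - x - t), sq_nonneg (t : ℤ)]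

theorem chk_simple : ((List.range 7).map fun a => (List.range 7).map fun i => chevE7.cartan i (chevE7.simple a)) =
    [[2, 0, -1, 0, 0, 0, 0], [0, 2, 0, -1, 0, 0, 0], [-1, 0, 2, -1, 0, 0, 0], [0, -1, -1, 2, -1, 0, 0],
      [0, 0, 0, -1, 2, -1, 0], [0, 0, 0, 0, -1, 2, -1], [0, 0, 0, 0, 0, -1, 2]] := by decide +kernel

/-- the labels of a cocharacter -/
def lb (l : Fin 7 → ℤ) (a : Fin 7) : ℤ := lev l (rc (chevE7.simple a))

theorem lb_eq (l : Fin 7 → ℤ) : lb l 0 = 2 * l 0 - l 2 ∧ lb l 1 = 2 * l 1 - l 3 ∧ lb l 2 = 2 * l 2 - l 0 - l 3 ∧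
    lb l 3 = 2 * l 3 - l 1 - l 2 - l 4 ∧ lb l 4 = 2 * l 4 - l 3 - l 5 ∧ lb l 5 = 2 * l 5 - l 4 - l 6 ∧
    lb l 6 = 2 * l 6 - l 5 := by
  have h1 := chk_simple
  simp only [List.range_succ, List.range_zero, List.nil_append, List.cons_append, List.map_cons, List.map_nil,
    List.cons.injEq, and_true] at h1
  simp only [lb, lev, rc, Fin.sum_univ_seven, Fin.isValue, Fin.val_zero, Fin.val_one, Fin.val_two,
    show ((3 : Fin 7) : ℕ) = 3 from rfl, show ((4 : Fin 7) : ℕ) = 4 from rfl, show ((5 : Fin 7) : ℕ) = 5 from rfl,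
    show ((6 : Fin 7) : ℕ) = 6 from rfl, h1]
  omega

theorem lb_cast (l : Fin 7 → ℤ) (a : Fin 7) : (lb l a : ℝ) = lE l a := lev_simple l a

theorem norm_eq (l : Fin 7 → ℤ) : bf (lE l) (lE l) = (lev l (lb l) : ℝ) := by
  rw [lev_cast]
  exact congrArg _ (funext fun a => (lb_cast l a).symm)

variable {k : Type u} [Field k] [Infinite k] {p : ℕ} {ι : Type} (Y : Fam k p ι)

theorem zp_V (i : ι) (κ : List ℤ → ℤ) (hκ : ∀ s s', (∀ j, j ≠ i → lev (Y.X j).l (wc s') = lev (Y.X j).l (wc s)) →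
    κ (lst (wc s')) = κ (lst (wc s))) : zp (WT.map fun x => (dot x (lst (Y.X i).l), κ x)) = false := by
  refine zp_false fun x hx h1 => ?_
  obtain ⟨_, h2, rfl⟩ := List.mem_map.1 hx
  obtain ⟨s, rfl⟩ := mem_WT.1 h2
  rw [dot_lst] at h1 ⊢
  obtain ⟨s', h3, h4⟩ := Y.zV (pw_ne (Y.X i).two h1)
  exact h4.imp (fun e => List.mem_map.2 ⟨_, mem_WT.2 ⟨s', rfl⟩, by rw [dot_lst, e, hκ _ _ h3]⟩)
    fun e => List.mem_map.2 ⟨_, mem_WT.2 ⟨s', rfl⟩, by rw [dot_lst, e, hκ _ _ h3]⟩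

theorem zf_V {i j : ι} (hij : i ≠ j) : zf WT (lst (Y.X i).l) (lst (Y.X j).l) = false :=
  zp_V Y i _ fun s s' e => by rw [dot_lst, dot_lst, e j hij.symm]

theorem zf_L {i j : ι} (hij : i ≠ j) : zf GT (lst (Y.X i).l) (lst (Y.X j).l) = false := by
  refine zp_false fun x hx h1 => ?_
  obtain ⟨_, h2, rfl⟩ := List.mem_map.1 hx
  obtain ⟨s, rfl⟩ := mem_GT.1 h2
  rw [dot_lst] at h1 ⊢
  obtain ⟨s', h3, h4⟩ := Y.zL (pw_ne (Y.X i).two h1)
  exact h4.imp (fun e => List.mem_map.2 ⟨_, mem_GT.2 ⟨s', rfl⟩, by rw [dot_lst, e, dot_lst, dot_lst, h3 j hij.symm]⟩)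
    fun e => List.mem_map.2 ⟨_, mem_GT.2 ⟨s', rfl⟩, by rw [dot_lst, e, dot_lst, dot_lst, h3 j hij.symm]⟩

theorem chk_NU : ∀ ν ∈ NU, lst (fun a => ν.getD a 0) = ν ∧ ν ≠ lst 0 := by decide +kernel

theorem rk_false {i j : ι} (hij : i ≠ j) : rk (lst (Y.X i).l) (lst (Y.X j).l) = false := by
  rw [rk, List.any_eq_false]
  intro ν hν e
  obtain ⟨h1, h2⟩ := chk_NU ν hν
  refine h2 (h1.symm.trans (congrArg lst (Y.cent fun a r hr h3 h4 => ?_)))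
  have h5 := List.all_eq_true.1 e _ (mem_CT.2 ⟨r, hr, rfl⟩)
  rw [← h1, dot_lst, dot_lst, dot_lst, Bool.or_eq_true, beq_iff_eq] at h5
  refine h5.resolve_right ?_
  by_cases e1 : i = a
  · rw [h4 j (e1 ▸ hij.symm), e1, h3]
    decide
  · by_cases e2 : j = a
    · rw [h4 i e1, e2, h3]
      decide
    · rw [h4 i e1, h4 j e2]
      decide

/-- the levels on the roots are even -/
def Ev : Prop := ∀ i, ∀ r < 126, lev (Y.X i).l (rc r) % 2 = 0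

variable {Y} in
theorem Ev.move (hY : Ev Y) (v : List (Fin 7)) : Ev (Y.move v) := fun i r hr => by
  obtain ⟨s, hs, e⟩ := exists_wL_rv v.reverse hr
  have h1 := lev_cast ((Y.move v).X i).l (rc r)
  rw [Y.move_l, bf_wL, show cv (rc r) = rv r from rfl, e, rv, ← lev_cast, Int.cast_inj] at h1
  rw [h1, hY i s hs]

theorem pair_dom (hY : Ev Y) {i j : ι} (hij : i ≠ j) (hi : Dom (lE (Y.X i).l))
    (hj : ∀ a, lE (Y.X i).l a = 0 → 0 ≤ lE (Y.X j).l a) : lst (Y.X i).l = t1 ∧ lst (Y.X j).l = t2 := by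
  have h1 : ∀ a, ∃ b : Bool, lb (Y.X i).l a = 2 * b.toInt ∧ (b = true → (Y.X j).l a = 0) ∧
      (b = false → 0 ≤ lb (Y.X j).l a) := fun a => by
    have h2 : lb (Y.X i).l a ≤ 2 := Y.lab_le_two hi a
    have h3 : lb (Y.X i).l a % 2 = 0 := hY i _ (simple_lt7 a a.2)
    have h4 : 0 ≤ lb (Y.X i).l a := by
      have h5 := hi a
      rwa [← lb_cast, Int.cast_nonneg_iff] at h5
    by_cases e : lb (Y.X i).l a = 0
    · refine ⟨false, e, fun e' => absurd e' Bool.false_ne_true, fun _ => ?_⟩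
      have h5 := hj a (by rw [← lb_cast, e, Int.cast_zero])
      rwa [← lb_cast, Int.cast_nonneg_iff] at h5
    · exact ⟨true, show _ = 2 by omega, fun _ => Y.coord_eq_zero hij hi (by rw [← lb_cast]; exact_mod_cast e),
        fun e' => absurd e'.symm Bool.false_ne_true⟩
  choose b hb hz hd using h1
  have h2 : (Y.X i).l = nt_cw fun a => (b a).toInt := nt_lE_inj (by
    rw [nt_lE_cw]
    funext a
    rw [← lb_cast, hb, Pi.smul_apply, cv, smul_eq_mul, Int.cast_mul, Int.cast_ofNat])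
  have h3 : lev (Y.X j).l (lb (Y.X j).l) = 2 * lev (nt_cw fun a => (b a).toInt) fun a => (b a).toInt := by
    have h4 := Y.norm j i
    rw [norm_eq, norm_eq, Int.cast_inj] at h4
    rw [h4, ← h2, lev, lev, Finset.mul_sum]
    exact Finset.sum_congr rfl fun a _ => by rw [hb, mul_assoc]
  have h4 := chk_all (b 0) (b 1) (b 2) (b 3) (b 4) (b 5) (b 6)
  rw [chk, show [(b 0).toInt, (b 1).toInt, (b 2).toInt, (b 3).toInt, (b 4).toInt, (b 5).toInt, (b 6).toInt] =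
    lst fun a => (b a).toInt from rfl, cwl_lst, ← h2, Bool.or_eq_true] at h4
  rcases h4 with h4 | h4
  · refine absurd ?_ (Y.X i).l_ne
    simp only [Bool.not_eq_true', Bool.or_eq_false_iff] at h4
    rw [h2]
    funext a
    simp [nt_cw, Fin.sum_univ_seven, h4]
  have hp : ∀ a, lb (Y.X j).l a % 2 = 0 := fun a => hY j _ (simple_lt7 a a.2)
  obtain ⟨e0, e1, e2, e3, e4, e5, e6⟩ := lb_eq (Y.X j).l
  have h5 : lev (Y.X j).l (lb (Y.X j).l) = 2 * dot (lst (Y.X i).l) (lst fun a => (b a).toInt) := by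
    rw [h3, dot_lst, h2, lev, lev]
    simp only [mul_comm]
  rw [← h5, lev, Fin.sum_univ_seven, e0, e1, e2, e3, e4, e5, e6] at h4
  have h6 : leaf (lst (Y.X i).l) (lst (Y.X j).l) = true := srch_int h4 (hz 0) (hz 1) (hz 2) (hz 3) (hz 4) (hz 5) (hz 6)
    (e0 ▸ hd 0) (e1 ▸ hd 1) (e2 ▸ hd 2) (e3 ▸ hd 3) (e4 ▸ hd 4) (e5 ▸ hd 5) (e6 ▸ hd 6) (e0 ▸ hp 0) (e1 ▸ hp 1) (e2 ▸ hp 2)
    (e3 ▸ hp 3) (e5 ▸ hp 5) (e6 ▸ hp 6)
  rwa [leaf, zf_V Y hij, zf_V Y hij.symm, zf_L Y hij, rk_false Y hij, Bool.false_or, Bool.false_or, Bool.false_or,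
    Bool.false_or, Bool.and_eq_true, beq_iff_eq, beq_iff_eq] at h6

/-- **two cocharacters** -/
theorem pair (hY : Ev Y) {i j : ι} (hij : i ≠ j) : ∃ v, lst ((Y.move v).X i).l = t1 ∧ lst ((Y.move v).X j).l = t2 := by
  obtain ⟨v, h1, h2⟩ := exists_dom2 (lE (Y.X i).l) (lE (Y.X j).l)
  exact ⟨v, pair_dom _ (hY.move v) hij (by rwa [Y.move_l]) (by rwa [Y.move_l, Y.move_l])⟩

end Cfsg.Agent.E7P.En2
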