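import Cfsg.Agent.E7P.En2.Pair

/-!
# S5932, END2: orthogonal coroots (helper61)

* `Sm A` : the weights are `0, ± 2`; `Qm A` : an operator onto the fixed vectors; `trace_list` : the trace of the product;
* `en2` : there is no family with at least two members and even levels.
-/

set_option autoImplicit false
set_option maxRecDepth 100000
set_option maxHeartbeats 400000

namespace Cfsg.Agent.E7P.En2

open Cfsg Cfsg.Lie Matrix
open Cfsg.Agent.R2.T1 Cfsg.Agent.E7P.Kf Cfsg.Agent.E7P.Rsl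
open Cfsg.Agent.H943.SL2Rel (u w h)

universe u

variable {k : Type u} [Field k]

section
variable {I : Type*} [Fintype I] [DecidableEq I] (A : Rep2 k I)

/-- the weights are `0, ± 2` -/
def Sm : Prop := ∀ s, A.n s = 0 ∨ A.n s = 2 ∨ A.n s = -2

/-- a function of the weight -/
def dg (φ : ℤ → ℤ) : Matrix I I k := diagonal fun s => (φ (A.n s) : k)

/-- the projection to the weight `0` -/
def p0 : Matrix I I k := dg A fun x => if x = 0 then 1 else 0

/-- an operator onto the fixed vectors -/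
noncomputable def Qm : Matrix I I k := (1 - (2 : k)⁻¹ • (A.F * A.E)) * p0 A

variable {A}

theorem dg_mulVec (φ : ℤ → ℤ) {j : ℤ} {x : I → k} (hx : x ∈ A.Wt j) : dg A φ *ᵥ x = (φ j : k) • x := by
  funext s
  rw [dg, mulVec_diagonal, Pi.smul_apply, smul_eq_mul]
  by_cases e : x s = 0
  · rw [e, mul_zero, mul_zero]
  · rw [hx s e]

theorem p0_mem (x : I → k) : p0 A *ᵥ x ∈ A.Wt 0 := fun s hs => by
  by_contra e
  exact hs (by rw [p0, dg, mulVec_diagonal, if_neg e, Int.cast_zero, zero_mul])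

theorem Sm.zero (hA : Sm A) {j : ℤ} {x : I → k} (hx : x ∈ A.Wt j) (hj : 2 < j ∨ j < -2) : x = 0 := funext fun s => by
  by_contra e
  have h1 := hx s e
  have h2 := hA s
  omega

theorem ext_wt {B C : Matrix I I k} (e : ∀ j, ∀ x ∈ A.Wt j, B *ᵥ x = C *ᵥ x) : B = C := by
  ext a b
  have h1 := congrFun (e _ _ (A.single_mem b 1)) a
  rwa [mulVec_single_one, mulVec_single_one] at h1

variable [Infinite k]

theorem comm_dg {B : Matrix I I k} (e : ∀ x, B * A.R x = A.R x * B) (φ : ℤ → ℤ) : B * dg A φ = dg A φ * B := by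
  ext a b
  rw [dg, mul_diagonal, diagonal_mul, mul_comm]
  by_cases h0 : B a b = 0
  · rw [h0, mul_zero, mul_zero]
  · rw [Rep2.wt_of_comm (fun _ => e _) h0]

theorem comm_Qm {B : Matrix I I k} (e : ∀ x, B * A.R x = A.R x * B) : B * Qm A = Qm A * B := by
  have h1 : Commute B A.E := Rep2.comm_E e
  have h2 : Commute B A.F := Rep2.comm_F e
  have h3 : Commute B (p0 A) := comm_dg e _
  exact ((Commute.one_right B).sub_right ((h2.mul_right h1).smul_right _)).mul_right h3

theorem Sm.fix (hA : Sm A) (h2 : (2 : k) ≠ 0) (x : I → k) (g : SpecialLinearGroup (Fin 2) k) :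
    A.R g *ᵥ Qm A *ᵥ x = Qm A *ᵥ x := by
  have h0 := p0_mem (A := A) x
  have h1 := Rep2.E_mem h0
  have h3 : Qm A *ᵥ x = p0 A *ᵥ x - (2 : k)⁻¹ • A.F *ᵥ A.E *ᵥ p0 A *ᵥ x := by
    rw [Qm, ← mulVec_mulVec, sub_mulVec, one_mulVec, smul_mulVec, ← mulVec_mulVec]
  have h4 : Qm A *ᵥ x ∈ A.Wt 0 := h3 ▸ sub_mem h0 (Submodule.smul_mem _ _ (Rep2.F_mem h1))
  have h5 : A.E *ᵥ Qm A *ᵥ x = 0 := by
    rw [h3, mulVec_sub, mulVec_smul, Rep2.EF_mulVec h2 h1, hA.zero (Rep2.E_mem h1) (by omega), mulVec_zero, zero_add,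
      smul_smul, zero_add, Int.cast_ofNat, inv_mul_cancel₀ h2, one_smul, sub_self]
  have h6 : A.F *ᵥ Qm A *ᵥ x = 0 := Rep2.f4 h2 (by simpa using h2) (Rep2.F_mem h4)
    (by rw [Rep2.EF_mulVec h2 h4, h5, mulVec_zero, Int.cast_zero, zero_smul, add_zero])
    (hA.zero (Rep2.F_mem (Rep2.F_mem h4)) (by omega))
  refine Rep2.fix_all (fun m hm => ?_) (fun m hm => ?_) g
  · by_cases e : m = 1
    · rw [e]; exact h5
    · exact hA.zero (Rep2.D_mem h4 m) (by omega)
  · by_cases e : m = 1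
    · rw [e, ← Rep2.E, Rep2.op_E, neg_mulVec, h6, neg_zero]
    · exact hA.zero (Rep2.opD_mem h4 m) (by omega)

theorem Sm.trace (hA : Sm A) (h2 : (2 : k) ≠ 0) {B : Matrix I I k} (e : ∀ x, B * A.R x = A.R x * B) :
    trace (Qm A * B) = trace (dg A chi * B) := by
  have h1 : p0 A - (2 : k)⁻¹ • (A.E * p0 A * A.F) = dg A chi := ext_wt (A := A) fun j x hx => by
    rw [sub_mulVec, smul_mulVec, ← mulVec_mulVec, ← mulVec_mulVec, p0, dg_mulVec _ (Rep2.F_mem hx), dg_mulVec _ hx,
      dg_mulVec _ hx, mulVec_smul, chi]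
    by_cases e2 : j = 2
    · rw [Rep2.EF_mulVec h2 hx, hA.zero (Rep2.E_mem hx) (by omega), e2]
      simp [smul_smul, h2]
    · rw [if_neg (show j - 2 ≠ 0 by omega), if_neg e2]
      simp
  rw [← h1, Qm, sub_mul, one_mul, sub_mul, sub_mul, trace_sub, trace_sub, smul_mul_assoc, smul_mul_assoc, smul_mul_assoc,
    trace_smul, trace_smul, mul_assoc A.F, mul_assoc A.F, trace_mul_comm A.F, mul_assoc _ B, Rep2.comm_F e, ← mul_assoc]

end

section
variable [Infinite k] {I ι : Type*} [Fintype I] [DecidableEq I] {A : ι → Rep2 k I}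
  (hA : ∀ i j, i ≠ j → ∀ x y, (A i).R x * (A j).R y = (A j).R y * (A i).R x) (hS : ∀ i, Sm (A i)) (h2 : (2 : k) ≠ 0)
include hA

theorem comm_list {L : List ι} {i : ι} (hi : i ∉ L) (x : SpecialLinearGroup (Fin 2) k) :
    Commute ((A i).R x) (L.map fun j => Qm (A j)).prod :=
  Commute.list_prod_right _ _ fun B hB => by
    obtain ⟨j, hj, rfl⟩ := List.mem_map.1 hB
    exact comm_Qm (hA i j (fun e => hi (e ▸ hj)) x)

include hS h2

theorem fix_list {L : List ι} (hL : L.Nodup) {i : ι} (hi : i ∈ L) (g : SpecialLinearGroup (Fin 2) k) (x : I → k) :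
    (A i).R g *ᵥ (L.map fun j => Qm (A j)).prod *ᵥ x = (L.map fun j => Qm (A j)).prod *ᵥ x := by
  induction L with
  | nil => exact absurd hi List.not_mem_nil
  | cons j L ih =>
    rw [List.map_cons, List.prod_cons, ← mulVec_mulVec]
    rcases List.mem_cons.1 hi with rfl | hi
    · exact (hS i).fix h2 _ g
    · rw [mulVec_mulVec, comm_Qm (hA i j (fun e => (List.nodup_cons.1 hL).1 (e ▸ hi)) g), ← mulVec_mulVec,
        ih (List.nodup_cons.1 hL).2 hi]

theorem trace_list {L : List ι} (hL : L.Nodup) {B : Matrix I I k} (hB : ∀ i ∈ L, ∀ x, Commute B ((A i).R x)) :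
    trace ((L.map fun j => Qm (A j)).prod * B) =
      trace (diagonal (fun s => (((L.map fun j => chi ((A j).n s)).prod : ℤ) : k)) * B) := by
  induction L generalizing B with
  | nil => simp
  | cons j L ih =>
    obtain ⟨h1, h3⟩ := List.nodup_cons.1 hL
    rw [List.map_cons, List.prod_cons, mul_assoc, (hS j).trace h2 fun x =>
      (comm_list hA h1 x).symm.mul_left (hB j List.mem_cons_self x), trace_mul_comm, mul_assoc, ih h3 fun i hi x =>
      (hB i (List.mem_cons_of_mem _ hi) x).mul_left (comm_dg (hA i j (fun e => h1 (e ▸ hi)) x) chi).symm, ← mul_assoc,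
      trace_mul_comm, ← mul_assoc, dg, diagonal_mul_diagonal]
    simp only [List.map_cons, List.prod_cons, Int.cast_mul]

end

theorem chk_sm : (CT.all fun x => WT.all fun y => dot y (cwl x) == 0 || dot y (cwl x) == 2 || dot y (cwl x) == -2) = true := by
  decide +kernel

variable [Infinite k] {p : ℕ} {ι : Type} (Y : Fam k p ι)

theorem trace_ne (hR : ∀ i, ∃ r < 126, (Y.X i).l = nt_cw (rc r)) {L : List ι} (hL : L.Nodup) (hall : ∀ i, i ∈ L) (i : ι) :
    (WT.map fun x => (L.map fun j => chi (dot x (lst (Y.X j).l))).prod).sum ≠ 2 := fun e => by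
  have hS : ∀ i, Sm (Y.X i).V := fun i s => by
    obtain ⟨r, hr, h1⟩ := hR i
    have h2 := List.all_eq_true.1 (List.all_eq_true.1 chk_sm _ (mem_CT.2 ⟨r, hr, rfl⟩)) _ (mem_WT.2 ⟨s, rfl⟩)
    rwa [cwl_lst, dot_lst, ← h1, Bool.or_eq_true, Bool.or_eq_true, beq_iff_eq, beq_iff_eq, beq_iff_eq, or_assoc] at h2
  have h1 := trace_list Y.comm_V hS (Y.X i).two hL fun _ _ _ => Commute.one_left _
  have h2 : (L.map fun j => Qm (Y.X j).V).prod = 0 := by
    ext a b
    have h3 := congrFun (Y.fixV _ fun j x => fix_list Y.comm_V hS (Y.X i).two hL (hall j) x (Pi.single b 1)) a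
    rwa [mulVec_single_one] at h3
  rw [h2, zero_mul, trace_zero, mul_one, trace_diagonal, ← Int.cast_sum] at h1
  rw [← sum_WT] at e
  simp only [dot_lst] at e
  exact (Y.X i).two (by rw [h1]; exact_mod_cast congrArg (Int.cast : ℤ → k) e.symm)

/-- **no family with two members and even levels** -/
theorem en2 (hY : Ev Y) {i j : ι} (hij : i ≠ j) : False := by
  obtain ⟨v, h1, h2⟩ := pair Y hY hij
  generalize Y.move v = Z at h1 h2
  have hR : ∀ a, ∃ r < 126, (Z.X a).l = nt_cw (rc r) := fun a => by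
    obtain ⟨v, hv⟩ := Z.conj i a
    obtain ⟨r, hr, e⟩ := exists_wL_rv v (show 125 < 126 by norm_num)
    have h3 : (Z.X i).l = nt_cw (rc 125) := lst_inj (by
      rw [h1, ← cwl_lst, show lst (rc 125) = [1, 0, 0, 0, 0, 0, 0] by decide +kernel]
      decide +kernel)
    exact ⟨r, hr, nt_lE_inj (by rw [hv, h3, nt_lE_cw, nt_lE_cw, map_smul]; exact congrArg _ e)⟩
  choose ρ hρ hl using id hR
  have ho : ∀ a b, a ≠ b → dot (lst (rc (ρ b))) (lst (Z.X a).l) = 0 := fun a b hab => by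
    have h3 := Z.orth hab
    rw [hl b, nt_lE_cw, map_smul, ← lev_cast, smul_eq_mul, mul_eq_zero, Int.cast_eq_zero] at h3
    rw [dot_lst, h3.resolve_left two_ne_zero]
  have hc : ∀ a, cwl (lst (rc (ρ a))) = lst (Z.X a).l := fun a => by rw [cwl_lst, hl]
  by_cases e2 : ∀ a, a ∈ [i, j]
  · refine trace_ne Z hR (by simp [hij]) e2 i ?_
    simp only [List.map_cons, List.map_nil, List.prod_cons, List.prod_nil, mul_one, h1, h2]
    exact chk_two
  obtain ⟨a, ha⟩ := not_forall.1 e2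
  simp only [List.mem_cons, List.not_mem_nil, or_false, not_or] at ha
  have hai := ho i a (Ne.symm ha.1)
  have haj := ho j a (Ne.symm ha.2)
  by_cases e3 : ∀ b, b ∈ [i, j, a]
  · have h3 := List.all_eq_true.1 chk_three _ (mem_CT.2 ⟨_, hρ a, rfl⟩)
    rw [hc, ← h1, ← h2, hai, haj, zp_V Z i _ fun s s' e => by
      rw [dot_lst, dot_lst, dot_lst, dot_lst, e j hij.symm, e a ha.1]] at h3
    refine trace_ne Z hR (by simp [hij, Ne.symm ha.1, Ne.symm ha.2]) e3 i ?_
    simpa only [List.map_cons, List.map_nil, List.prod_cons, List.prod_nil, mul_one, beq_self_eq_true, Bool.and_self,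
      Bool.not_true, Bool.false_or, Bool.or_false, beq_iff_eq] using h3
  obtain ⟨b, hb⟩ := not_forall.1 e3
  simp only [List.mem_cons, List.not_mem_nil, or_false, not_or] at hb
  have h3 := List.all_eq_true.1 chk_four _ (mem_CT.2 ⟨_, hρ a, rfl⟩)
  rw [← h1, ← h2, hai, haj, hc] at h3
  have h4 := List.all_eq_true.1 ((Bool.false_or _).symm.trans h3) _ (mem_CT.2 ⟨_, hρ b, rfl⟩)
  rw [hc, ho i b (Ne.symm hb.1), ho j b (Ne.symm hb.2.1), ho a b (Ne.symm hb.2.2), zp_V Z i _ fun s s' e => by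
    simp only [dot_lst, e j hij.symm, e a ha.1, e b hb.1], zp_V Z j _ fun s s' e => by
    simp only [dot_lst, e i hij, e a ha.2, e b hb.2.1]] at h4
  exact absurd h4 (by decide)

end Cfsg.Agent.E7P.En2
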